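import Cfsg.Agent.H899.ChevNS

/-!
Elimination: an element of `U` (over the field with two elements) whose entries `(β, h_i)` vanish for all
positive roots `β` of level `< a` lies in the subgroup generated by the `x_r(1)` with `lev r ≥ a`.
-/

set_option autoImplicit false

namespace Cfsg.Agent.H899.ChevElim

open Cfsg.Lie Cfsg.Agent.ChevStructure.Level Cfsg.Agent.ChevalleyStructure.Elts
  Cfsg.Agent.ChevalleyStructure.NConj Cfsg.Agent.H899.ChevLv Cfsg.Agent.H899.E8Tab
  Cfsg.Agent.H899.ChevNS

universe u

variable {D : ChevalleyDatum} (hD : InList D) {F : Type u} [Field F]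
  (hF : ∀ t : F, t = 0 ∨ t = 1)

theorem good_lam (hT : Tab D) : Good D lam 4000 :=
  ⟨hT.lam_add, fun _ hr hr' => (lam_pos_spec hr hr').le⟩

theorem good_lev (hT : Tab D) : Good D lev 6 := by
  refine ⟨hT.lev_add, fun r hr hr' => ?_⟩
  by_contra h
  have h1 := (lam_ref_spec hr).1 (by omega)
  have h2 := lam_pos_spec hr hr'
  omega

include hF in
theorem elim_step (hT : Tab D) {m : ℕ} (hm : 4001 ≤ m) {g : GL D.Idx F}
    (hg : g ∈ NS hD F (Rf lam m))
    (hz : ∀ β : Fin D.nroots, 120 ≤ β.val → lam β.val = m → ∀ i : Fin D.rank,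
      (g : Matrix D.Idx D.Idx F) (Sum.inr β) (Sum.inl i) = 0) :
    g ∈ NS hD F (Rf lam (m + 1)) := by
  by_cases h : ∃ β < 240, 120 ≤ β ∧ lam β = m
  · obtain ⟨β, hβ, hβ', hβm⟩ := h
    set x := xG hD β (1 : F) with hx
    have hxx : x * x = 1 := xG_sq hD hF β
    have hxi : x⁻¹ = x := inv_eq_of_mul_eq_one_right hxx
    have hconj : ∀ a ∈ NS hD F (Rf lam (m + 1)), x * a * x ∈ NS hD F (Rf lam (m + 1)) := by
      intro a ha
      have := conj_x_NS hD hF hT (good_lam hT) hβ hβ' (1 : F) ha
      rwa [← hx, hxi] at this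
    have key : ∀ g ∈ NS hD F (Rf lam m), g ∈ NS hD F (Rf lam (m + 1)) ∨
        x * g ∈ NS hD F (Rf lam (m + 1)) := by
      intro g hg
      change g ∈ Subgroup.closure _ at hg
      induction hg using Subgroup.closure_induction with
      | mem g hg =>
        obtain ⟨r, ⟨hr, hr', hrm⟩, rfl⟩ := hg
        by_cases he : lam r = m
        · right
          rw [lam_inj_spec hr hβ hr' hβ' (he.trans hβm.symm), ← hx, hxx]
          exact one_mem _
        · left
          exact one_mem_NS hD ⟨hr, hr', by omega⟩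
      | one => exact Or.inl (one_mem _)
      | mul a b _ _ ha hb =>
        rcases ha with ha | ha <;> rcases hb with hb | hb
        · exact Or.inl (mul_mem ha hb)
        · right
          have h1 := mul_mem (hconj a ha) hb
          have h2 : x * a * x * (x * b) = x * (a * b) := by
            calc x * a * x * (x * b) = x * a * (x * x) * b := by group
              _ = x * (a * b) := by rw [hxx]; group
          rwa [h2] at h1
        · right
          rw [← mul_assoc]
          exact mul_mem ha hb
        · left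
          have h1 := mul_mem (hconj _ ha) hb
          have h2 : x * (x * a) * x * (x * b) = a * b := by
            calc x * (x * a) * x * (x * b) = (x * x) * a * (x * x) * b := by group
              _ = a * b := by rw [hxx]; group
          rwa [h2] at h1
      | inv a _ ha =>
        rcases ha with ha | ha
        · exact Or.inl (inv_mem ha)
        · right
          have h1 := hconj _ (inv_mem ha)
          have h2 : x * (x * a)⁻¹ * x = x * a⁻¹ := by
            rw [mul_inv_rev, hxi]
            calc x * (a⁻¹ * x) * x = x * a⁻¹ * (x * x) := by group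
              _ = x * a⁻¹ := by rw [hxx, mul_one]
          rwa [h2] at h1
    rcases key g hg with h1 | h1
    · exact h1
    · exfalso
      obtain ⟨k, hk⟩ : ∃ k, m = 4000 + (k + 1) := ⟨m - 4001, by omega⟩
      have hg' : g = x * (x * g) := by rw [← mul_assoc, hxx, one_mul]
      set g' := x * g with hg'def
      have h2 : Raises (lv D 4000 lam) (k + 1 + 1) ((g' : Matrix D.Idx D.Idx F) - 1) := by
        refine NS_raises hD hT (good_lam hT) ?_
        rw [hk] at h1
        exact h1
      have h3 := ((good_lam hT).up hβ hβ').raises_zero (F := F) (by rw [hT.nroots]; exact hβ) 1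
      have h4 := h3.mul h2
      obtain ⟨i, hi, hci⟩ := hT.cartan β hβ
      have hi' : i < D.rank := by rw [hT.rank]; exact hi
      have hβ'' : β < D.nroots := by rw [hT.nroots]; exact hβ
      have h5 := hz ⟨β, hβ''⟩ hβ' hβm ⟨i, hi'⟩
      have h6 : (g : Matrix D.Idx D.Idx F) = D.x F β 1 + D.x F β 1 * ((g' : Matrix D.Idx D.Idx F) - 1) := by
        rw [hg', Units.val_mul, mul_sub, mul_one]
        show D.x F β 1 * _ = _
        abel
      rw [h6, Matrix.add_apply, x_entry hβ'', if_pos rfl] at h5
      have h7 : (D.x F β 1 * ((g' : Matrix D.Idx D.Idx F) - 1)) (Sum.inr ⟨β, hβ''⟩) (Sum.inl ⟨i, hi'⟩) = 0 := by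
        by_contra hne
        have := h4 _ _ hne
        rw [lv_inl, lv_inr] at this
        show False
        have h8 : (⟨β, hβ''⟩ : Fin D.nroots).val = β := rfl
        rw [h8] at this
        omega
      rw [h7, add_zero, mul_one] at h5
      have h8 : (⟨i, hi'⟩ : Fin D.rank).val = i := rfl
      rw [h8] at h5
      rcases hci with hci | hci <;> rw [hci] at h5 <;> simp at h5
  · have hsub : Rf lam m ⊆ Rf lam (m + 1) := by
      rintro r ⟨hr, hr', hrm⟩
      refine ⟨hr, hr', ?_⟩
      by_contra hlt
      exact h ⟨r, hr, hr', by omega⟩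
    exact NS_mono hD hsub hg

include hF in
theorem posUnipotent_le (hT : Tab D) : D.posUnipotent F ≤ NS hD F (Rf lam 0) := by
  rw [posUnipotent_le_iff hD]
  intro r hr t
  have h1 := (hT.pos_iff r).1 hr
  exact xG_mem_NS hD hF (R := Rf lam 0) ⟨h1.1, h1.2, Nat.zero_le _⟩ t

include hF in
theorem elim (hT : Tab D) {a : ℕ} {g : GL D.Idx F} (hg : g ∈ D.posUnipotent F)
    (hz : ∀ β : Fin D.nroots, 120 ≤ β.val → lev β.val < a → ∀ i : Fin D.rank,
      (g : Matrix D.Idx D.Idx F) (Sum.inr β) (Sum.inl i) = 0) :
    g ∈ NS hD F (Rf lev a) := by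
  have key : ∀ m, m ≤ 500 * a + 1000 → g ∈ NS hD F (Rf lam m) := by
    intro m
    induction m with
    | zero => exact fun _ => posUnipotent_le hD hF hT hg
    | succ m ih =>
      intro hm
      have h1 := ih (by omega)
      by_cases hm' : m ≤ 4000
      · refine NS_mono hD ?_ h1
        rintro r ⟨hr, hr', -⟩
        exact ⟨hr, hr', by have := lam_pos_spec hr hr'; omega⟩
      · refine elim_step hD hF hT (by omega) h1 ?_
        intro β hβ hβm i
        refine hz β hβ ?_ i
        have h2 := ((lam_ref_spec (lt_of_lt_of_eq β.2 hT.nroots)).2.2.1 hβ).1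
        omega
  refine NS_mono hD ?_ (key _ le_rfl)
  rintro r ⟨hr, hr', hrm⟩
  refine ⟨hr, hr', ?_⟩
  have h2 := ((lam_ref_spec hr).2.2.1 hr').2
  omega

theorem NS_le_posUnipotent (hT : Tab D) {f : ℕ → ℕ} {a : ℕ} :
    NS hD F (Rf f a) ≤ D.posUnipotent F := by
  refine (Subgroup.closure_le _).2 ?_
  rintro g ⟨r, ⟨hr, hr', -⟩, rfl⟩
  exact xG_mem_posUnipotent hD ((hT.pos_iff r).2 ⟨hr, hr'⟩) 1

end Cfsg.Agent.H899.ChevElim
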