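import Cfsg.Agent.ChevStructure.PosUnip
import Cfsg.Agent.ChevalleyStructure.Elts
import Cfsg.Agent.S1095

/-!
Level functions on the coordinates of a tabulated Chevalley datum: constant on the Cartan part, given by
`m : ℕ → ℕ` on the roots.
-/

set_option autoImplicit false

namespace Cfsg.Agent.H899.ChevLv

open Cfsg.Lie Cfsg.Agent.ChevStructure.Level Cfsg.Agent.ChevalleyStructure.Elts

/-- The level function with value `off` on the Cartan part and `m s` on the root `s`. -/
def lv (D : ChevalleyDatum) (off : ℕ) (m : ℕ → ℕ) : D.Idx → ℕ
  | Sum.inl _ => off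
  | Sum.inr s => m s.val

variable {D : ChevalleyDatum} {F : Type*} [Field F] {off : ℕ} {m : ℕ → ℕ}

@[simp] theorem lv_inl (i : Fin D.rank) : lv D off m (Sum.inl i) = off := rfl
@[simp] theorem lv_inr (s : Fin D.nroots) : lv D off m (Sum.inr s) = m s.val := rfl

/-- `x_r(t) - 1` raises the level by `a`. -/
theorem raises_xMat {r : ℕ} (hr : r < D.nroots) {a : ℕ} (h1 : m r = off + a)
    (h2 : m (D.negIdx.getD r 0) + a = off)
    (h3 : ∀ e ∈ (D.chain.getD r #[]).toList, ∀ q ∈ e.2.toList, m e.1 + a ≤ m q.1) (t : F) :
    Raises (lv D off m) a (D.xMat F ⟨r, hr⟩ t - 1) := by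
  intro row col hne
  rw [Matrix.sub_apply] at hne
  have hxm : D.xMat F ⟨r, hr⟩ t row col ≠ (1 : Matrix D.Idx D.Idx F) row col :=
    fun h => hne (by rw [h, sub_self])
  clear hne
  rcases col with i | s
  · rcases row with i' | u
    · exfalso
      apply hxm
      show (if i' = i then (1 : F) else 0) = _
      rw [Matrix.one_apply]
      by_cases h : i' = i
      · rw [if_pos h, if_pos (by rw [h])]
      · rw [if_neg h, if_neg (fun h' => h (Sum.inl_injective h'))]
    · show off + a ≤ m u.val
      by_cases hu : u = ⟨r, hr⟩
      · subst hu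
        show off + a ≤ m r
        omega
      · exfalso
        apply hxm
        show (if u = ⟨r, hr⟩ then _ else (0 : F)) = _
        rw [if_neg hu, Matrix.one_apply, if_neg (by simp)]
  · by_cases hs : s = ⟨r, hr⟩
    · exfalso
      apply hxm
      subst hs
      rcases row with i | u
      · show (if (⟨r, hr⟩ : Fin D.nroots) = ⟨r, hr⟩ then (0 : F) else _) = _
        rw [if_pos rfl, Matrix.one_apply, if_neg (by simp)]
      · show (if (⟨r, hr⟩ : Fin D.nroots) = ⟨r, hr⟩ then (if u = ⟨r, hr⟩ then (1 : F) else 0)
          else _) = _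
        rw [if_pos rfl, Matrix.one_apply]
        by_cases hu : u = ⟨r, hr⟩
        · rw [if_pos hu, if_pos (by rw [hu])]
        · rw [if_neg hu, if_neg (fun h' => hu (Sum.inr_injective h'))]
    · by_cases hs' : s.val = D.negIdx.getD r 0
      · rcases row with i | u
        · show m s.val + a ≤ off
          rw [hs']
          omega
        · show m s.val + a ≤ m u.val
          by_cases hu : u = s
          · exfalso
            apply hxm
            show (if s = ⟨r, hr⟩ then (if u = ⟨r, hr⟩ then (1 : F) else 0)
              else if s.val = D.negIdx.getD r 0 then (if u = s then (1 : F) else _) else _) = _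
            rw [if_neg hs, if_pos hs', if_pos hu, Matrix.one_apply, if_pos (by rw [hu])]
          · by_cases hu' : u = ⟨r, hr⟩
            · subst hu'
              show m s.val + a ≤ m r
              rw [hs']
              omega
            · exfalso
              apply hxm
              show (if s = ⟨r, hr⟩ then (if u = ⟨r, hr⟩ then (1 : F) else 0)
                else if s.val = D.negIdx.getD r 0 then
                  (if u = s then (1 : F) else if u = ⟨r, hr⟩ then -(t ^ 2) else 0) else _) = _
              rw [if_neg hs, if_pos hs', if_neg hu, if_neg hu', Matrix.one_apply,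
                if_neg (fun h' => hu (Sum.inr_injective h'))]
      · rcases row with i | u
        · exfalso
          apply hxm
          show (if s = ⟨r, hr⟩ then (0 : F) else if s.val = D.negIdx.getD r 0 then _ else (0 : F))
            = _
          rw [if_neg hs, if_neg hs', Matrix.one_apply, if_neg (by simp)]
        · show m s.val + a ≤ m u.val
          have hne : D.chainCoeff r s.val u.val ≠ [] := by
            intro hnil
            apply hxm
            show (if s = ⟨r, hr⟩ then (if u = ⟨r, hr⟩ then (1 : F) else 0)
                else if s.val = D.negIdx.getD r 0 then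
                  (if u = s then (1 : F) else if u = ⟨r, hr⟩ then -(t ^ 2) else 0) else
                  (if u = s then (1 : F) else 0) +
                    ((D.chainCoeff r s.val u.val).map fun km => ((km.2 : ℤ) : F) * t ^ km.1).sum)
                    = _
            rw [if_neg hs, if_neg hs', hnil, List.map_nil, List.sum_nil, add_zero,
              Matrix.one_apply]
            by_cases hu : u = s
            · rw [if_pos hu, if_pos (by rw [hu])]
            · rw [if_neg hu, if_neg (fun h' => hu (Sum.inr_injective h'))]
          obtain ⟨km, hkm⟩ := List.exists_mem_of_ne_nil _ hne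
          rw [Cfsg.Agent.ChevStructure.PosUnip.chainCoeff_def, List.mem_flatMap] at hkm
          obtain ⟨e, he, hkm⟩ := hkm
          rw [List.mem_filter] at he
          rw [List.mem_map] at hkm
          obtain ⟨q, hq, -⟩ := hkm
          rw [List.mem_filter] at hq
          have h4 := h3 e he.1 q.1 (List.fst_mem_of_mem_zipIdx hq.1)
          have h5 : e.1 = s := by simpa using he.2
          have h6 : q.1.1 = u := by simpa using hq.2
          rw [← h5, ← h6]
          exact h4

/-- The level data of the root `r` for `(off, m)`: `x_r(t) - 1` raises the level by `a`. -/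
structure Up (D : ChevalleyDatum) (off : ℕ) (m : ℕ → ℕ) (r a : ℕ) : Prop where
  root : m r = off + a
  neg : m (D.negIdx.getD r 0) + a = off
  chain : ∀ e ∈ (D.chain.getD r #[]).toList, ∀ q ∈ e.2.toList, m e.1 + a ≤ m q.1

theorem Up.raises {r a : ℕ} (hr : r < D.nroots) (h : Up D off m r a) (t : F) :
    Raises (lv D off m) a (D.x F r t - 1) := by
  rw [x_of_lt hr]
  exact raises_xMat hr h.root h.neg h.chain t

theorem Up.raises_zero {r a : ℕ} (hr : r < D.nroots) (h : Up D off m r a) (t : F) :
    Raises (lv D off m) 0 (D.x F r t) := by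
  have h1 : Raises (lv D off m) 0 (D.x F r t - 1) := Raises.mono (h.raises hr t) (Nat.zero_le _)
  have h2 := h1.add raises_one
  rwa [sub_add_cancel] at h2

/-- The entry of `x_r(t)` at `(β, h_i)`. -/
theorem x_entry {r : ℕ} (hr : r < D.nroots) (t : F) (β : Fin D.nroots) (i : Fin D.rank) :
    D.x F r t (Sum.inr β) (Sum.inl i) =
      if β.val = r then - ((D.cartan i r : ℤ) : F) * t else 0 := by
  rw [x_of_lt hr]
  show (if β = ⟨r, hr⟩ then _ else (0 : F)) = _
  by_cases h : β = ⟨r, hr⟩
  · rw [if_pos h, if_pos (by rw [h])]
    rfl
  · rw [if_neg h, if_neg (fun h' => h (Fin.ext h'))]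

/-! ### The monomial pattern of `n_p` -/

theorem nMat_pattern (hD : InList D) {i : ℕ} (hi : i < D.rank) {row col : D.Idx}
    (h : D.nMat F (D.simple i) 1 row col ≠ 0) :
    lv D off m row = lv D off (fun s => m (D.reflectRoot i s)) col := by
  obtain ⟨η, -, -, -, -, h5⟩ := S1095.result (F := F) D hD i hi
  rw [h5] at h
  rcases row with j' | s' <;> rcases col with j | s
  · rfl
  · exact absurd rfl h
  · exact absurd rfl h
  · show m s'.val = m (D.reflectRoot i s.val)
    by_cases hs : (s' : ℕ) = D.reflectRoot i s
    · rw [hs]
    · exfalso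
      apply h
      show (if (s' : ℕ) = D.reflectRoot i s then ((η s : ℤ) : F) else 0) = 0
      rw [if_neg hs]

/-- Conjugating by `n_p` a matrix raising the level `m` gives one raising `m ∘ w_p`
(`N`, `N'` matrices with the pattern of `n_p`). -/
theorem raises_conj (hD : InList D) {i : ℕ} (hi : i < D.rank) {k : ℕ} {X : Matrix D.Idx D.Idx F}
    (hinv : ∀ s < D.nroots, m (D.reflectRoot i (D.reflectRoot i s)) = m s)
    (hX : Raises (lv D off m) k X) :
    Raises (lv D off (fun s => m (D.reflectRoot i s))) k
      (D.nMat F (D.simple i) 1 * X * D.nMat F (D.simple i) 1) := by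
  intro a b h
  rw [Matrix.mul_apply] at h
  obtain ⟨d, -, hd⟩ := Finset.exists_ne_zero_of_sum_ne_zero h
  have h1 := left_ne_zero_of_mul hd
  have h2 := right_ne_zero_of_mul hd
  rw [Matrix.mul_apply] at h1
  obtain ⟨c, -, hc⟩ := Finset.exists_ne_zero_of_sum_ne_zero h1
  have h3 := left_ne_zero_of_mul hc
  have h4 := right_ne_zero_of_mul hc
  have h5 := hX c d h4
  have h6 := nMat_pattern (off := off) (m := m) hD hi h2
  have h7 := nMat_pattern (off := off) (m := fun s => m (D.reflectRoot i s)) hD hi h3
  have h8 : lv D off (fun s => m (D.reflectRoot i (D.reflectRoot i s))) c = lv D off m c := by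
    rcases c with j | s
    · rfl
    · exact hinv s.val s.2
  have h9 : lv D off (fun s => m (D.reflectRoot i s)) a = lv D off m c := by rw [h7]; exact h8
  rw [h9, ← h6]
  exact h5

theorem lv_congr {m m' : ℕ → ℕ} (h : ∀ s < D.nroots, m s = m' s) : lv D off m = lv D off m' := by
  funext x
  rcases x with i | s
  · rfl
  · exact h s.val s.2

end Cfsg.Agent.H899.ChevLv
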