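import Cfsg.Agent.H899.ChevLv
import Cfsg.Agent.H899.E8Tab
import Cfsg.Agent.ChevalleyStructure.NConj
import Cfsg.Agent.S1025

/-!
Subgroups generated by the root elements `x_r(1)`, `r ∈ R`, over the field with two elements, in a
Chevalley datum whose tables satisfy `E8Tab.Tab`.
-/

set_option autoImplicit false

namespace Cfsg.Agent.H899.ChevNS

open Cfsg.Lie Cfsg.Agent.ChevStructure.Level Cfsg.Agent.ChevalleyStructure.Elts
  Cfsg.Agent.ChevalleyStructure.NConj Cfsg.Agent.H899.ChevLv Cfsg.Agent.H899.E8Tab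

universe u

variable {D : ChevalleyDatum} (hD : InList D) {F : Type u} [Field F]

/-- The subgroup generated by the `x_r(1)`, `r ∈ R`. -/
def NS (F : Type u) [Field F] (R : Set ℕ) : Subgroup (GL D.Idx F) :=
  Subgroup.closure {g | ∃ r ∈ R, g = xG hD r (1 : F)}

theorem NS_mono {R R' : Set ℕ} (h : R ⊆ R') : NS hD F R ≤ NS hD F R' := by
  refine (Subgroup.closure_le _).2 ?_
  rintro g ⟨r, hr, rfl⟩
  exact Subgroup.subset_closure ⟨r, h hr, rfl⟩

theorem one_mem_NS {R : Set ℕ} {r : ℕ} (hr : r ∈ R) : xG hD r (1 : F) ∈ NS hD F R :=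
  Subgroup.subset_closure ⟨r, hr, rfl⟩

section two

variable (hF : ∀ t : F, t = 0 ∨ t = 1)

include hF in
theorem one_add_one : (1 : F) + 1 = 0 := by
  rcases hF (1 + 1) with h | h
  · exact h
  · exact absurd (add_eq_left.1 h) one_ne_zero

include hF in
theorem neg_one_eq : (-1 : F) = 1 := by
  rw [neg_eq_iff_add_eq_zero]
  exact one_add_one hF

include hF in
theorem xG_sq (r : ℕ) : xG hD r (1 : F) * xG hD r 1 = 1 := by
  rw [xG_add, one_add_one hF, xG_zero]

include hF in
theorem xG_inv_one (r : ℕ) : (xG hD r (1 : F))⁻¹ = xG hD r 1 :=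
  inv_eq_of_mul_eq_one_right (xG_sq hD hF r)

include hF in
theorem nG_inv_one (r : ℕ) : (nG hD r (1 : F))⁻¹ = nG hD r 1 := by
  rw [nG_inv, neg_one_eq hF]

include hF in
theorem xG_mem_NS {R : Set ℕ} {r : ℕ} (hr : r ∈ R) (t : F) : xG hD r t ∈ NS hD F R := by
  rcases hF t with rfl | rfl
  · rw [xG_zero]; exact one_mem _
  · exact one_mem_NS hD hr

include hD hF in
theorem diagonal_eq_bot : D.diagonalSubgroup F = ⊥ := by
  rw [eq_bot_iff, diagonal_le_iff hD]
  intro r _ t ht
  rcases hF t with rfl | rfl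
  · exact absurd rfl ht
  · rw [hG_one]
    exact one_mem _

/-! ### Commutators -/

/-- With singleton chains the commutator terms are the entries of the chain table. -/
theorem commTerms_spec (hT : Tab D) {r s : ℕ} (hr : r < 240) (hs : s < 240) {c : ℕ × ℤ × ℕ × ℕ}
    (hc : c ∈ D.commTerms r s) :
    ∃ e ∈ (D.chain.getD r #[]).toList, e.1 = s ∧ ∃ q ∈ e.2.toList, q.1 = c.1 := by
  have hlen : ∀ r < 240, ∀ s, (D.chainEntry r s).length ≤ 1 := by
    intro r hr s
    unfold ChevalleyDatum.chainEntry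
    cases hf : (D.chain.getD r #[]).toList.find? (fun e => e.1 = s) with
    | none => exact Nat.zero_le _
    | some e =>
      have h1 := List.mem_of_find?_eq_some hf
      have h2 := (hT.ch r hr e h1).1
      show e.2.toList.length ≤ 1
      exact h2.le
  have hnone : ∀ r < 240, ∀ s i, 2 ≤ i → D.chainRoot r s i = none := by
    intro r hr s i hi
    unfold ChevalleyDatum.chainRoot
    rw [List.getElem?_eq_none (by have := hlen r hr s; omega)]
    rfl
  unfold ChevalleyDatum.commTerms at hc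
  simp only [hnone r hr s 2 le_rfl, hnone s hs r 2 le_rfl, hnone r hr s 3 (by norm_num),
    hnone s hs r 3 (by norm_num), Option.bind_none, List.filterMap_cons, Option.map_none,
    List.filterMap_nil] at hc
  cases hcr : D.chainRoot r s 1 with
  | none =>
    rw [hcr] at hc
    simp at hc
  | some k =>
    rw [hcr] at hc
    simp only [Option.map_some, List.mem_singleton] at hc
    unfold ChevalleyDatum.chainRoot ChevalleyDatum.chainEntry at hcr
    cases hf : (D.chain.getD r #[]).toList.find? (fun e => e.1 = s) with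
    | none =>
      rw [hf] at hcr
      simp at hcr
    | some e =>
      rw [hf] at hcr
      have h1 := List.mem_of_find?_eq_some hf
      have h2 := List.find?_some hf
      refine ⟨e, h1, by simpa using h2, ?_⟩
      obtain ⟨q, hq, hqk⟩ := Option.map_eq_some_iff.1 hcr
      exact ⟨q, List.mem_of_getElem? hq, by rw [hqk, hc]⟩

include hF in
theorem comm_conj {r s : ℕ} (hr : r < D.nroots) (hs : s < D.nroots) (hrs : s ≠ r)
    (hneg : s ≠ D.neg r) {R : Set ℕ} (hsR : s ∈ R) (hc : ∀ c ∈ D.commTerms r s, c.1 ∈ R) (t u : F) :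
    (xG hD r t)⁻¹ * xG hD s u * xG hD r t ∈ NS hD F R := by
  have h1 := S1025.result (F := F) D hD r s hr hs hrs hneg t u
  have h2 : xG hD s u * xG hD r t = xG hD r t * xG hD s u * wordG hD (D.commWord F r s t u) := by
    apply Units.ext
    rw [Units.val_mul, Units.val_mul, Units.val_mul, coe_wordG]
    exact h1
  rw [mul_assoc, h2, mul_assoc, inv_mul_cancel_left]
  refine mul_mem (xG_mem_NS hD hF hsR u) (mem_of_xG_mem hD ?_)
  intro p hp
  unfold ChevalleyDatum.commWord at hp
  obtain ⟨c, hc', rfl⟩ := List.mem_map.1 hp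
  exact xG_mem_NS hD hF (hc c hc') _

/-- The positive roots `r` with `a ≤ f r`. -/
def Rf (f : ℕ → ℕ) (a : ℕ) : Set ℕ := {r | r < 240 ∧ 120 ≤ r ∧ a ≤ f r}

/-- `f` is additive with offset `off` on the tables and `≥ off` on positive roots. -/
structure Good (D : ChevalleyDatum) (f : ℕ → ℕ) (off : ℕ) : Prop where
  add : ∀ r < 240, Add D f off r
  pos : ∀ r < 240, 120 ≤ r → off ≤ f r

include hF in
theorem conj_x_NS (hT : Tab D) {f : ℕ → ℕ} {off : ℕ} (hf : Good D f off) {a : ℕ} {r : ℕ}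
    (hr : r < 240) (hr' : 120 ≤ r) (t : F) {g : GL D.Idx F} (hg : g ∈ NS hD F (Rf f a)) :
    (xG hD r t)⁻¹ * g * xG hD r t ∈ NS hD F (Rf f a) := by
  have hle : NS hD F (Rf f a) ≤ (NS hD F (Rf f a)).comap (MulAut.conj (xG hD r t)⁻¹).toMonoidHom := by
    refine (Subgroup.closure_le _).2 ?_
    rintro g ⟨s, ⟨hs, hs', hfs⟩, rfl⟩
    show (xG hD r t)⁻¹ * xG hD s 1 * ((xG hD r t)⁻¹)⁻¹ ∈ NS hD F (Rf f a)
    rw [inv_inv]
    by_cases hsr : s = r
    · subst hsr
      rw [mul_assoc, xG_add, xG_inv, xG_add, neg_add_cancel_comm_assoc]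
      exact one_mem_NS hD ⟨hs, hs', hfs⟩
    · refine comm_conj hD hF (R := Rf f a) (by rw [hT.nroots]; exact hr) (by rw [hT.nroots]; exact hs) hsr ?_
        ⟨hs, hs', hfs⟩ ?_ t 1
      · rw [hT.neg_eq r hr]
        omega
      · intro c hc
        obtain ⟨e, he, hes, q, hq, hqc⟩ := commTerms_spec hT hr hs hc
        have h1 := (hT.ch r hr e he).2 q hq
        have h2 := (hf.add r hr).chain e he q hq
        have h3 := hf.pos r hr hr'
        rw [← hqc]
        refine ⟨h1.1, h1.2 hr' (by omega), ?_⟩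
        rw [hes] at h2
        omega
  have := hle hg
  have h2 : (xG hD r t)⁻¹ * g * ((xG hD r t)⁻¹)⁻¹ ∈ NS hD F (Rf f a) := this
  rwa [inv_inv] at h2

include hF in
/-- Conjugation by `n_j` on subgroups generated by root elements. -/
theorem conj_n_NS (hT : Tab D) {R R' : Set ℕ} {j : ℕ} (hj : j < 8)
    (h : ∀ s ∈ R, s < 240 ∧ refl j s ∈ R') {g : GL D.Idx F} (hg : g ∈ NS hD F R) :
    nS hD F j * g * (nS hD F j)⁻¹ ∈ NS hD F R' := by
  have hle : NS hD F R ≤ (NS hD F R').comap (MulAut.conj (nS hD F j)).toMonoidHom := by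
    refine (Subgroup.closure_le _).2 ?_
    rintro g ⟨s, hs, rfl⟩
    show nS hD F j * xG hD s 1 * (nS hD F j)⁻¹ ∈ NS hD F R'
    obtain ⟨hs1, hs2⟩ := h s hs
    obtain ⟨η, -, h1, -⟩ := conj_x (F := F) hD (by rw [hT.rank]; exact hj)
      (by rw [hT.nroots]; exact hs1)
    rw [h1, hT.refl_eq j hj s hs1]
    exact xG_mem_NS hD hF hs2 _
  exact hle hg

/-! ### Levels -/

theorem Good.up {f : ℕ → ℕ} {off : ℕ} (hf : Good D f off) {r : ℕ} (hr : r < 240) (hr' : 120 ≤ r) :
    Up D off f r (f r - off) := by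
  have h1 := hf.pos r hr hr'
  have h2 := hf.add r hr
  refine ⟨by omega, by have := h2.neg; omega, fun e he q hq => ?_⟩
  have := h2.chain e he q hq
  omega

theorem exists_bound (D : ChevalleyDatum) (off : ℕ) (f : ℕ → ℕ) : ∃ n, ∀ i, lv D off f i < n := by
  obtain ⟨M, hM⟩ := Finite.exists_le (lv D off f)
  exact ⟨M + 1, fun i => Nat.lt_succ_of_le (hM i)⟩

/-- Elements of `N_{off+k+1}` minus one raise the level by `k + 1`. -/
theorem NS_raises (hT : Tab D) {f : ℕ → ℕ} {off : ℕ} (hf : Good D f off) {k : ℕ}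
    {g : GL D.Idx F} (hg : g ∈ NS hD F (Rf f (off + (k + 1)))) :
    Raises (lv D off f) (k + 1) ((g : Matrix D.Idx D.Idx F) - 1) := by
  obtain ⟨n, hn⟩ := exists_bound D off f
  have hle : NS hD F (Rf f (off + (k + 1))) ≤ unip F (lv D off f) n hn k := by
    refine (Subgroup.closure_le _).2 ?_
    rintro g ⟨s, ⟨hs, hs', hfs⟩, rfl⟩
    have h1 := (hf.up hs hs').raises (F := F) (by rw [hT.nroots]; exact hs) 1
    exact h1.mono (by omega)
  exact hle hg

end two

end Cfsg.Agent.H899.ChevNS
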