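import Mathlib

/-!
Iterated cores of two conjugate subgroups `M₁`, `M₂ = n M₁ n⁻¹` (`n` an involution), bounded above and
below by a descending chain of normal subgroups `N k` of `M₁`.
-/

set_option autoImplicit false

namespace Cfsg.Agent.H899.IterCore

variable {G : Type*} [Group G]

/-- The core in `M` of `Y ⊓ M`. -/
def cc (M Y : Subgroup G) : Subgroup G := (Y.subgroupOf M).normalCore.map M.subtype

theorem cc_le_left (M Y : Subgroup G) : cc M Y ≤ M := by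
  rintro _ ⟨x, -, rfl⟩
  exact x.2

theorem cc_le_right (M Y : Subgroup G) : cc M Y ≤ Y := by
  rintro _ ⟨x, hx, rfl⟩
  exact Subgroup.mem_subgroupOf.1 (Subgroup.normalCore_le _ hx)

theorem cc_conj {M Y : Subgroup G} {m a : G} (hm : m ∈ M) (ha : a ∈ cc M Y) :
    m * a * m⁻¹ ∈ cc M Y := by
  obtain ⟨x, hx, rfl⟩ := ha
  exact ⟨⟨m, hm⟩ * x * ⟨m, hm⟩⁻¹, (Subgroup.normalCore_normal _).conj_mem x hx ⟨m, hm⟩, rfl⟩

theorem le_cc {M Y K : Subgroup G} (h1 : K ≤ M) (h2 : K ≤ Y)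
    (h3 : ∀ m ∈ M, ∀ a ∈ K, m * a * m⁻¹ ∈ K) : K ≤ cc M Y := by
  intro a ha
  refine ⟨⟨a, h1 ha⟩, ?_, rfl⟩
  rintro ⟨m, hm⟩
  exact Subgroup.mem_subgroupOf.2 (h2 (h3 m hm a ha))

/-- The two sequences. -/
def seq (M₁ M₂ : Subgroup G) : ℕ → Subgroup G × Subgroup G
  | 0 => (M₁, M₂)
  | i + 1 => (cc M₁ ((seq M₁ M₂ i).1 ⊓ (seq M₁ M₂ i).2), cc M₂ ((seq M₁ M₂ i).1 ⊓ (seq M₁ M₂ i).2))

variable {M₁ M₂ : Subgroup G} {n : G}

theorem seq_conj (hn : n * n = 1) (h2 : ∀ x, x ∈ M₂ ↔ n * x * n ∈ M₁) (i : ℕ) :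
    ∀ x, x ∈ (seq M₁ M₂ i).2 ↔ n * x * n ∈ (seq M₁ M₂ i).1 := by
  have hnn : ∀ x, n * (n * x * n) * n = x := by
    intro x
    calc n * (n * x * n) * n = (n * n) * x * (n * n) := by group
      _ = x := by rw [hn, one_mul, mul_one]
  have hninv : n⁻¹ = n := inv_eq_of_mul_eq_one_right hn
  have hmul : ∀ x y, n * (x * y * x⁻¹) * n = (n * x * n) * (n * y * n) * (n * x * n)⁻¹ := by
    intro x y
    rw [mul_inv_rev, mul_inv_rev, hninv]
    calc n * (x * y * x⁻¹) * n = n * x * 1 * y * 1 * x⁻¹ * n := by group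
      _ = n * x * (n * n) * y * (n * n) * x⁻¹ * n := by rw [hn]
      _ = _ := by group
  induction i with
  | zero => exact h2
  | succ i ih =>
    -- `cc M₂ Y` and `cc M₁ Y` correspond under conjugation by `n`
    have hY : ∀ x, x ∈ (seq M₁ M₂ i).1 ⊓ (seq M₁ M₂ i).2 ↔
        n * x * n ∈ (seq M₁ M₂ i).1 ⊓ (seq M₁ M₂ i).2 := by
      intro x
      rw [Subgroup.mem_inf, Subgroup.mem_inf, ih x, ih (n * x * n), hnn]
      exact and_comm
    set Y := (seq M₁ M₂ i).1 ⊓ (seq M₁ M₂ i).2 with hYdef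
    have key : ∀ M M' : Subgroup G, (∀ x, x ∈ M' ↔ n * x * n ∈ M) →
        ∀ x, n * x * n ∈ cc M Y → x ∈ cc M' Y := by
      intro M M' hM x hx
      -- the subgroup `n (cc M Y) n`
      have h1 : (cc M Y).comap (MulAut.conj n).toMonoidHom ≤ cc M' Y := by
        refine le_cc ?_ ?_ ?_
        · intro a ha
          have ha' : n * a * n⁻¹ ∈ cc M Y := ha
          rw [hninv] at ha'
          exact (hM a).2 (cc_le_left _ _ ha')
        · intro a ha
          have ha' : n * a * n⁻¹ ∈ cc M Y := ha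
          rw [hninv] at ha'
          exact (hY a).2 (cc_le_right _ _ ha')
        · intro m hm a ha
          have ha' : n * a * n⁻¹ ∈ cc M Y := ha
          rw [hninv] at ha'
          show n * (m * a * m⁻¹) * n⁻¹ ∈ cc M Y
          rw [hninv, hmul]
          exact cc_conj ((hM m).1 hm) ha'
      refine h1 ?_
      show n * x * n⁻¹ ∈ cc M Y
      rwa [hninv]
    intro x
    constructor
    · intro hx
      refine key M₂ M₁ ?_ (n * x * n) ?_
      · intro y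
        rw [h2 (n * y * n), hnn]
      · rw [hnn]
        exact hx
    · intro hx
      exact key M₁ M₂ h2 x hx

theorem main (M₁ : Subgroup G) (n : G) (hn : n * n = 1) (N : ℕ → Subgroup G)
    (hN1 : N 1 ≤ M₁)
    (hNconj : ∀ k, 1 ≤ k → ∀ m ∈ M₁, ∀ a ∈ N k, m * a * m⁻¹ ∈ N k)
    (hanti : ∀ k, 1 ≤ k → N (k + 1) ≤ N k)
    (hNn : ∀ k, 1 ≤ k → ∀ a ∈ N (k + 1), n * a * n ∈ N k)
    (h6 : N 6 ≠ ⊥) (h7 : N 7 = ⊥)
    (hup1 : ∀ K : Subgroup G, K ≤ M₁ → (∀ m ∈ M₁, ∀ a ∈ K, m * a * m⁻¹ ∈ K) →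
      (∀ a ∈ K, n * a * n ∈ M₁) → K ≤ N 2)
    (hup : ∀ k, 2 ≤ k → ∀ K : Subgroup G, K ≤ M₁ → K ≤ N k →
      (∀ m ∈ M₁, ∀ a ∈ K, m * a * m⁻¹ ∈ K) → (∀ a ∈ K, n * a * n ∈ N k) → K ≤ N (k + 1)) :
    ∃ (M₂ : Subgroup G) (g : G) (A B : ℕ → Subgroup G),
      M₂ = M₁.map (MulAut.conj g).toMonoidHom ∧ M₁ ≠ M₂ ∧ A 0 = M₁ ∧ B 0 = M₂ ∧
      (∀ i, A (i + 1) = ((A i ⊓ B i).subgroupOf M₁).normalCore.map M₁.subtype) ∧
      (∀ i, B (i + 1) = ((A i ⊓ B i).subgroupOf M₂).normalCore.map M₂.subtype) ∧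
      A 6 = ⊥ ∧ A 5 ≠ ⊥ := by
  have hninv : n⁻¹ = n := inv_eq_of_mul_eq_one_right hn
  have hnn : ∀ x, n * (n * x * n) * n = x := by
    intro x
    calc n * (n * x * n) * n = (n * n) * x * (n * n) := by group
      _ = x := by rw [hn, one_mul, mul_one]
  set M₂ : Subgroup G := M₁.map (MulAut.conj n).toMonoidHom with hM₂
  have h2 : ∀ x, x ∈ M₂ ↔ n * x * n ∈ M₁ := by
    intro x
    rw [hM₂, Subgroup.mem_map]
    constructor
    · rintro ⟨y, hy, rfl⟩
      show n * (n * y * n⁻¹) * n ∈ M₁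
      rw [hninv, hnn]
      exact hy
    · intro hx
      refine ⟨n * x * n, hx, ?_⟩
      show n * (n * x * n) * n⁻¹ = x
      rw [hninv, hnn]
  have hsw := seq_conj hn h2
  have hup' : ∀ i, (seq M₁ M₂ (i + 1)).1 ≤ N (i + 2) := by
    intro i
    induction i with
    | zero =>
      refine hup1 _ (cc_le_left _ _) (fun m hm a ha => cc_conj hm ha) ?_
      intro a ha
      have h3 : a ∈ M₁ ⊓ M₂ := cc_le_right _ _ ha
      exact (h2 a).1 h3.2
    | succ i ih =>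
      refine hup (i + 2) (by omega) _ (cc_le_left _ _) ?_ (fun m hm a ha => cc_conj hm ha) ?_
      · intro a ha
        have h3 : a ∈ (seq M₁ M₂ (i + 1)).1 ⊓ (seq M₁ M₂ (i + 1)).2 := cc_le_right _ _ ha
        exact ih h3.1
      · intro a ha
        have h3 : a ∈ (seq M₁ M₂ (i + 1)).1 ⊓ (seq M₁ M₂ (i + 1)).2 := cc_le_right _ _ ha
        exact ih ((hsw (i + 1) a).1 h3.2)
  have hlow : ∀ i, N (i + 1) ≤ (seq M₁ M₂ i).1 := by
    have hNle : ∀ i, N (i + 1) ≤ M₁ := by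
      intro i
      induction i with
      | zero => exact hN1
      | succ i ih => exact (hanti (i + 1) (by omega)).trans ih
    intro i
    induction i with
    | zero => exact hN1
    | succ i ih =>
      refine le_cc (hNle _) (le_inf ((hanti (i + 1) (by omega)).trans ih) ?_) (hNconj _ (by omega))
      intro a ha
      exact (hsw i a).2 (ih (hNn (i + 1) (by omega) a ha))
  refine ⟨M₂, n, fun i => (seq M₁ M₂ i).1, fun i => (seq M₁ M₂ i).2, rfl, ?_, rfl, rfl,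
    fun i => rfl, fun i => rfl, ?_, ?_⟩
  · intro heq
    have hM : ∀ a ∈ M₁, n * a * n ∈ M₁ := by
      intro a ha
      rw [← h2, ← heq]
      exact ha
    have hMc : ∀ m ∈ M₁, ∀ a ∈ M₁, m * a * m⁻¹ ∈ M₁ := fun m hm a ha =>
      mul_mem (mul_mem hm ha) (inv_mem hm)
    have h3 : ∀ i, M₁ ≤ N (i + 2) := by
      intro i
      induction i with
      | zero => exact hup1 M₁ le_rfl hMc hM
      | succ i ih => exact hup (i + 2) (by omega) M₁ le_rfl ih hMc fun a ha => ih (hM a ha)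
    have h4 : M₁ = ⊥ := by
      rw [eq_bot_iff, ← h7]
      exact h3 5
    apply h6
    rw [eq_bot_iff, ← h4]
    exact hlow 5 |>.trans (by
      show cc M₁ _ ≤ M₁
      exact cc_le_left _ _)
  · have := hup' 5
    rw [eq_bot_iff, ← h7]
    exact this
  · intro h5
    apply h6
    rw [eq_bot_iff]
    have := hlow 5
    exact this.trans (le_of_eq h5)

end Cfsg.Agent.H899.IterCore
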