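import Cfsg.Agent.H899.ChevElim
import Cfsg.Agent.H899.IterCore
import Cfsg.Agent.LieExceptional.BNPairCore
import Cfsg.Agent.S1042

/-!
The maximal parabolic subgroup of `E₈(2)` of the branch node and its conjugate by the simple reflection:
the iterated cores vanish at the sixth step only.
-/

set_option autoImplicit false

namespace Cfsg.Agent.H899.ChevPar

open Cfsg Cfsg.Lie Cfsg.Agent.ChevStructure.Level Cfsg.Agent.ChevalleyStructure.Elts
  Cfsg.Agent.ChevalleyStructure.NConj Cfsg.Agent.H899.ChevLv Cfsg.Agent.H899.E8Tab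
  Cfsg.Agent.H899.ChevNS Cfsg.Agent.H899.ChevElim Cfsg.Agent.LieExceptional.BNPairCore

universe u

variable {D : ChevalleyDatum} (hD : InList D) {F : Type u} [Field F]
  (hF : ∀ t : F, t = 0 ∨ t = 1)

/-- `x_r(1)` in the Chevalley group. -/
def xg (F : Type u) [Field F] (r : ℕ) : ↥(D.group F) := ⟨xG hD r (1 : F), xG_mem_group hD r 1⟩

/-- `n_j` in the Chevalley group. -/
def ng (F : Type u) [Field F] (j : ℕ) : ↥(D.group F) := ⟨nS hD F j, nG_mem_group hD _ 1⟩

/-- The matrix of an element of the Chevalley group. -/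
abbrev mt (g : ↥(D.group F)) : Matrix D.Idx D.Idx F := ((g : GL D.Idx F) : Matrix D.Idx D.Idx F)

theorem mt_mul (g h : ↥(D.group F)) : mt (g * h) = mt g * mt h := rfl
theorem mt_one : mt (1 : ↥(D.group F)) = 1 := rfl
theorem mt_ng (j : ℕ) : mt (ng hD F j) = D.nMat F (D.simple j) 1 := coe_nG hD _ 1

include hF in
theorem xg_sq (r : ℕ) : xg hD F r * xg hD F r = 1 := Subtype.ext (xG_sq hD hF r)

include hF in
theorem xg_inv (r : ℕ) : (xg hD F r)⁻¹ = xg hD F r := inv_eq_of_mul_eq_one_right (xg_sq hD hF r)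

include hF in
theorem ng_inv (j : ℕ) : (ng hD F j)⁻¹ = ng hD F j := Subtype.ext (nG_inv_one hD hF _)

include hF in
theorem ng_sq (j : ℕ) : ng hD F j * ng hD F j = 1 := by
  conv_lhs => rw [← ng_inv hD hF j]
  rw [ng_inv hD hF j, mul_eq_one_iff_inv_eq, ng_inv hD hF j]

/-- The stabiliser of the filtration defined by a level function. -/
def Fil (D : ChevalleyDatum) (F : Type u) [Field F] (ℓ : D.Idx → ℕ) : Subgroup ↥(D.group F) where
  carrier := {g | Raises ℓ 0 (mt g) ∧ Raises ℓ 0 (mt g⁻¹)}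
  one_mem' := by
    refine ⟨raises_one, ?_⟩
    rw [inv_one]
    exact raises_one
  mul_mem' := by
    rintro a b ⟨ha, ha'⟩ ⟨hb, hb'⟩
    refine ⟨by simpa [mt_mul] using ha.mul hb, ?_⟩
    rw [mul_inv_rev]
    simpa [mt_mul] using hb'.mul ha'
  inv_mem' := by
    rintro a ⟨ha, ha'⟩
    refine ⟨ha', ?_⟩
    rw [inv_inv]
    exact ha

theorem mem_Fil {ℓ : D.Idx → ℕ} {g : ↥(D.group F)} :
    g ∈ Fil D F ℓ ↔ Raises ℓ 0 (mt g) ∧ Raises ℓ 0 (mt g⁻¹) := Iff.rfl

include hF in
theorem xg_mem_Fil (hT : Tab D) {f : ℕ → ℕ} {off : ℕ} (hf : Good D f off) {r : ℕ} (hr : r < 240)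
    (hr' : 120 ≤ r) : xg hD F r ∈ Fil D F (lv D off f) := by
  have h1 : Raises (lv D off f) 0 (mt (xg hD F r)) :=
    (hf.up hr hr').raises_zero (F := F) (by rw [hT.nroots]; exact hr) 1
  refine ⟨h1, ?_⟩
  rw [xg_inv hD hF]
  exact h1

include hF in
theorem ng_mem_Fil (hT : Tab D) {j : ℕ} (hj : j < 8) (hj3 : j ≠ 3) :
    ng hD F j ∈ Fil D F (lv D 6 lev) := by
  have h1 : Raises (lv D 6 lev) 0 (mt (ng hD F j)) := by
    intro row col h
    rw [mt_ng] at h
    have h2 := nMat_pattern (off := 6) (m := lev) hD (by rw [hT.rank]; exact hj) h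
    have h3 : lv D 6 (fun s => lev (D.reflectRoot j s)) = lv D 6 lev := by
      refine lv_congr fun s hs => ?_
      rw [hT.nroots] at hs
      rw [hT.refl_eq j hj s hs]
      exact (refl_spec hj hs).2.2.2 hj3
    rw [h3] at h2
    omega
  refine ⟨h1, ?_⟩
  rw [ng_inv hD hF]
  exact h1

/-- `n_j` does not preserve a filtration whose level separates `±α_j`. -/
theorem ng_not_mem_Fil (hT : Tab D) {f : ℕ → ℕ} {off : ℕ} (hf : ∀ r < 240, Add D f off r) {j : ℕ}
    (hj : j < 8) (hpos : off < f (D.simple j)) : ng hD F j ∉ Fil D F (lv D off f) := by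
  intro h
  have h1 := (mem_Fil.1 h).1
  rw [mt_ng] at h1
  obtain ⟨η, h2, h3, -, -, h5⟩ := S1095.result (F := F) D hD j (by rw [hT.rank]; exact hj)
  have hs := (hT.simple j hj).1
  have hn : D.neg (D.simple j) < D.nroots := by rw [hT.nroots, hT.neg_eq _ hs]; omega
  have h6 : D.nMat F (D.simple j) 1 (Sum.inr ⟨D.neg (D.simple j), hn⟩)
      (Sum.inr ⟨D.simple j, by rw [hT.nroots]; exact hs⟩) ≠ 0 := by
    rw [h5]
    show (if D.neg (D.simple j) = D.reflectRoot j (D.simple j) then ((η (D.simple j) : ℤ) : F) else 0) ≠ 0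
    have hr : D.reflectRoot j (D.simple j) = D.neg (D.simple j) := if_pos rfl
    rw [if_pos hr.symm, h3]
    simp
  have h7 := h1 _ _ h6
  have h8 : f (D.simple j) + 0 ≤ f (D.neg (D.simple j)) := h7
  have h9 : f (D.neg (D.simple j)) + f (D.simple j) = 2 * off := (hf _ hs).neg
  omega

/-! ### The parabolic subgroup -/

/-- The representatives of the simple reflections other than the branch node. -/
def JS (D : ChevalleyDatum) (F : Type u) [Field F] : Set ↥(D.group F) :=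
  {n | ∃ i < D.rank, i ≠ 3 ∧ mt n = D.nMat F (D.simple i) 1}

section BN

variable {P : BNPair ↥(D.group F)}
  (hPB : P.B = (D.borelSubgroup F).subgroupOf (D.group F))
  (hPS : P.S = {n : ↥(D.group F) | ∃ i < D.rank, mt n = D.nMat F (D.simple i) 1})

theorem eq_ng {i : ℕ} {n : ↥(D.group F)} (h : mt n = D.nMat F (D.simple i) 1) : n = ng hD F i :=
  Subtype.ext ((eq_nG_iff hD _ _ _).2 h)

include hPB hD hF in
theorem B_le_of (K : Subgroup ↥(D.group F)) (hT : Tab D) (h : ∀ r < 240, 120 ≤ r → xg hD F r ∈ K) :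
    P.B ≤ K := by
  have hU : D.posUnipotent F ≤ K.map (D.group F).subtype := by
    rw [posUnipotent_le_iff hD]
    intro r hr t
    have h1 := (hT.pos_iff r).1 hr
    rcases hF t with rfl | rfl
    · rw [xG_zero]
      exact one_mem _
    · exact ⟨xg hD F r, h r h1.1 h1.2, rfl⟩
  intro g hg
  rw [hPB, Subgroup.mem_subgroupOf] at hg
  have h2 : D.borelSubgroup F = D.posUnipotent F := by
    show D.posUnipotent F ⊔ D.diagonalSubgroup F = _
    rw [diagonal_eq_bot hD hF, sup_bot_eq]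
  rw [h2] at hg
  obtain ⟨k, hk, hkg⟩ := hU hg
  have : k = g := Subtype.ext hkg
  rwa [← this]

include hPB in
theorem mem_B_of_posUnipotent {g : ↥(D.group F)} (hg : (g : GL D.Idx F) ∈ D.posUnipotent F) :
    g ∈ P.B := by
  rw [hPB, Subgroup.mem_subgroupOf]
  exact (le_sup_left : D.posUnipotent F ≤ D.borelSubgroup F) hg

include hPB hD hF in
theorem posUnipotent_of_mem_B {g : ↥(D.group F)} (hg : g ∈ P.B) :
    (g : GL D.Idx F) ∈ D.posUnipotent F := by
  rw [hPB, Subgroup.mem_subgroupOf] at hg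
  have h2 : D.borelSubgroup F = D.posUnipotent F := by
    show D.posUnipotent F ⊔ D.diagonalSubgroup F = _
    rw [diagonal_eq_bot hD hF, sup_bot_eq]
  rwa [h2] at hg

include hPB hD hF in
theorem parabolic_le_of (K : Subgroup ↥(D.group F)) (hT : Tab D)
    (h : ∀ r < 240, 120 ≤ r → xg hD F r ∈ K) (hn : ∀ j < 8, j ≠ 3 → ng hD F j ∈ K) :
    P.parabolic (JS D F) ≤ K := by
  refine sup_le (B_le_of hD hF hPB K hT h) ((Subgroup.closure_le _).2 ?_)
  rintro n ⟨i, hi, hi3, hn'⟩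
  rw [eq_ng hD hn']
  exact hn i (by rw [← hT.rank]; exact hi) hi3

theorem ng_mem_parabolic (hT : Tab D) {j : ℕ} (hj : j < 8) (hj3 : j ≠ 3) :
    ng hD F j ∈ P.parabolic (JS D F) :=
  (le_sup_right : _ ≤ P.parabolic (JS D F))
    (Subgroup.subset_closure ⟨j, by rw [hT.rank]; exact hj, hj3, mt_ng hD j⟩)

include hPB hD hF in
theorem parabolic_le_Fil (hT : Tab D) : P.parabolic (JS D F) ≤ Fil D F (lv D 6 lev) :=
  parabolic_le_of hD hF hPB _ hT (fun _ hr hr' => xg_mem_Fil hD hF hT (good_lev hT) hr hr')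
    fun _ hj hj3 => ng_mem_Fil hD hF hT hj hj3

include hD hF hPB hPS in
theorem isCoatom (hT : Tab D) (h3 : 6 < lev (D.simple 3)) : IsCoatom (P.parabolic (JS D F)) := by
  constructor
  · intro htop
    have h1 : ng hD F 3 ∈ Fil D F (lv D 6 lev) := by
      apply parabolic_le_Fil hD hF hPB hT
      rw [htop]
      exact Subgroup.mem_top _
    exact ng_not_mem_Fil hD hT hT.lev_add (by norm_num) h3 h1
  · intro M hM
    have hBM : P.B ≤ M := le_sup_left.trans hM.le
    by_cases h : ng hD F 3 ∈ M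
    · have hS : P.S ⊆ M := by
        intro n hn
        rw [hPS] at hn
        obtain ⟨i, hi, hn⟩ := hn
        rw [eq_ng hD hn]
        by_cases hi3 : i = 3
        · rw [hi3]; exact h
        · exact hM.le (ng_mem_parabolic hD hT (by rw [← hT.rank]; exact hi) hi3)
      rw [eq_top_iff, ← P.sup_eq_top, ← P.closure_sup]
      refine sup_le hBM (sup_le ((Subgroup.closure_le _).2 hS) (inf_le_left.trans hBM))
    · exfalso
      have h1 : M ≤ P.parabolic (JS D F) := by
        rw [eq_parabolic hBM]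
        refine sup_le le_sup_left ?_
        refine ((Subgroup.closure_le _).2 ?_).trans le_sup_right
        rintro n ⟨hnS, hnM⟩
        refine Subgroup.subset_closure ?_
        rw [hPS] at hnS
        obtain ⟨i, hi, hn⟩ := hnS
        refine ⟨i, hi, ?_, hn⟩
        rintro rfl
        exact h (by rw [← eq_ng hD hn]; exact hnM)
      exact hM.not_ge h1

/-! ### The subgroups `N k` -/

/-- generated by the root elements of level at least `k`. -/
def Nk (F : Type u) [Field F] (k : ℕ) : Subgroup ↥(D.group F) :=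
  (NS hD F (Rf lev (6 + k))).subgroupOf (D.group F)

theorem mem_Nk {k : ℕ} {g : ↥(D.group F)} :
    g ∈ Nk hD F k ↔ (g : GL D.Idx F) ∈ NS hD F (Rf lev (6 + k)) := Subgroup.mem_subgroupOf

include hF in
theorem conj_Nk_x (hT : Tab D) {k : ℕ} {r : ℕ} (hr : r < 240) (hr' : 120 ≤ r) {a : ↥(D.group F)}
    (ha : a ∈ Nk hD F k) : xg hD F r * a * (xg hD F r)⁻¹ ∈ Nk hD F k := by
  rw [mem_Nk] at ha ⊢
  have h1 := conj_x_NS hD hF hT (good_lev hT) hr hr' (1 : F) ha
  have h2 : (((xg hD F r * a * (xg hD F r)⁻¹ : ↥(D.group F))) : GL D.Idx F) =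
      (xG hD r (1 : F))⁻¹ * (a : GL D.Idx F) * xG hD r 1 := by
    rw [xG_inv_one hD hF]
    show xG hD r 1 * (a : GL D.Idx F) * (xG hD r 1)⁻¹ = _
    rw [xG_inv_one hD hF]
  rw [h2]
  exact h1

include hF in
theorem conj_Nk_n (hT : Tab D) {k : ℕ} (hk : 1 ≤ k) {j : ℕ} (hj : j < 8) (hj3 : j ≠ 3)
    {a : ↥(D.group F)} (ha : a ∈ Nk hD F k) : ng hD F j * a * (ng hD F j)⁻¹ ∈ Nk hD F k := by
  rw [mem_Nk] at ha ⊢
  refine conj_n_NS hD hF hT hj (R := Rf lev (6 + k)) ?_ ha
  rintro s ⟨hs, hs', hsk⟩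
  obtain ⟨-, h2, -, h4⟩ := refl_spec hj hs
  have h5 := h4 hj3
  refine ⟨hs, h2, ?_, by omega⟩
  exact (refl3_spec h2).2.1 (by omega)

include hF in
theorem conj_Nk_n3 (hT : Tab D) {k : ℕ} (hk : 1 ≤ k) {a : ↥(D.group F)} (ha : a ∈ Nk hD F (k + 1)) :
    ng hD F 3 * a * ng hD F 3 ∈ Nk hD F k := by
  rw [mem_Nk] at ha ⊢
  have h1 := conj_n_NS hD hF hT (j := 3) (by norm_num) (R := Rf lev (6 + (k + 1)))
    (R' := Rf lev (6 + k)) ?_ ha
  · rw [nG_inv_one hD hF] at h1
    exact h1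
  · rintro s ⟨hs, hs', hsk⟩
    obtain ⟨-, h2, -, -⟩ := refl_spec (j := 3) (by norm_num) hs
    have h5 := (refl3_spec hs).1 (by omega)
    refine ⟨hs, h2, ?_, by omega⟩
    exact (refl3_spec h2).2.1 (by omega)

include hF hPB in
theorem conj_Nk (hT : Tab D) {k : ℕ} (hk : 1 ≤ k) {m a : ↥(D.group F)}
    (hm : m ∈ P.parabolic (JS D F)) (ha : a ∈ Nk hD F k) : m * a * m⁻¹ ∈ Nk hD F k := by
  have hinvol : ∀ x : ↥(D.group F), x⁻¹ = x → (∀ a ∈ Nk hD F k, x * a * x⁻¹ ∈ Nk hD F k) →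
      x ∈ Subgroup.normalizer (Nk hD F k : Set ↥(D.group F)) := by
    intro x hx h
    rw [Subgroup.mem_normalizer_iff]
    intro a
    constructor
    · exact h a
    · intro h1
      have h2 := h _ h1
      have h3 : x * (x * a * x⁻¹) * x⁻¹ = a := by
        nth_rw 1 [← hx]
        nth_rw 3 [hx]
        group
      rwa [h3] at h2
  have hle : P.parabolic (JS D F) ≤ Subgroup.normalizer (Nk hD F k : Set ↥(D.group F)) := by
    refine parabolic_le_of hD hF hPB _ hT ?_ ?_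
    · intro r hr hr'
      exact hinvol _ (xg_inv hD hF r) fun a ha => conj_Nk_x hD hF hT hr hr' ha
    · intro j hj hj3
      exact hinvol _ (ng_inv hD hF j) fun a ha => conj_Nk_n hD hF hT hk hj hj3 ha
  exact (Subgroup.mem_normalizer_iff.1 (hle hm) a).1 ha

/-! ### Upper bounds -/

theorem raises_sub_one_zero {ℓ : D.Idx → ℕ} {g : ↥(D.group F)} (h : Raises ℓ 0 (mt g)) :
    Raises ℓ 0 (mt g - 1) := h.sub raises_one

include hF in
/-- Conjugating an element by `n_j`: levels are composed with the reflection. -/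
theorem raises_conj_ng (hT : Tab D) {j : ℕ} (hj : j < 8) {k : ℕ} {m : ℕ → ℕ} {g : ↥(D.group F)}
    (h : Raises (lv D 6 m) k (mt (ng hD F j * g * (ng hD F j)⁻¹) - 1)) :
    Raises (lv D 6 (fun s => m (refl j s))) k (mt g - 1) := by
  have h1 := raises_conj (off := 6) (m := m) (i := j) hD (by rw [hT.rank]; exact hj) (F := F) ?_ h
  · have h2 : D.nMat F (D.simple j) 1 * (mt (ng hD F j * g * (ng hD F j)⁻¹) - 1) *
        D.nMat F (D.simple j) 1 = mt g - 1 := by
      rw [← mt_ng hD j, mul_sub, mul_one, sub_mul, ← mt_mul, ← mt_mul, ← mt_mul]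
      have h3 : ng hD F j * (ng hD F j * g * (ng hD F j)⁻¹) * ng hD F j = g := by
        have h4 := ng_sq hD hF j
        calc ng hD F j * (ng hD F j * g * (ng hD F j)⁻¹) * ng hD F j
            = (ng hD F j * ng hD F j) * g := by group
          _ = g := by rw [h4, one_mul]
      rw [h3, ng_sq hD hF, mt_one]
    rw [h2] at h1
    have h3 : lv D 6 (fun s => m (D.reflectRoot j s)) = lv D 6 (fun s => m (refl j s)) := by
      refine lv_congr fun s hs => ?_
      rw [hT.nroots] at hs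
      rw [hT.refl_eq j hj s hs]
    rw [h3] at h1
    exact h1
  · intro s hs
    rw [hT.nroots] at hs
    obtain ⟨-, h5, h6, -⟩ := refl_spec hj hs
    rw [hT.refl_eq j hj s hs, hT.refl_eq j hj _ h5, h6]

include hF in
/-- All the row levels are raised. -/
theorem raises_rows (hT : Tab D) {K : Subgroup ↥(D.group F)}
    (hK : ∀ j < 8, j ≠ 3 → ∀ a ∈ K, ng hD F j * a * (ng hD F j)⁻¹ ∈ K) {k : ℕ}
    (h0 : ∀ g ∈ K, Raises (lv D 6 (row 0)) k (mt g - 1)) (t : ℕ) (ht : t < 30) :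
    ∀ g ∈ K, Raises (lv D 6 (row t)) k (mt g - 1) := by
  induction t using Nat.strong_induction_on with
  | _ t ih =>
    by_cases ht0 : t = 0
    · rw [ht0]; exact h0
    · intro g hg
      obtain ⟨p, hp, j, hj, hj3, hrow⟩ := row_succ ht ht0
      have h1 := ih p hp (by omega) _ (hK j hj hj3 g hg)
      have h2 := raises_conj_ng hD hF hT hj h1
      have h3 : lv D 6 (row t) = lv D 6 (fun s => row p (refl j s)) := by
        refine lv_congr fun s hs => ?_
        rw [hT.nroots] at hs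
        exact hrow s hs
      rw [h3]
      exact h2

include hF in
theorem raises_row_zero (hT : Tab D) {k : ℕ} {g : ↥(D.group F)}
    (h : Raises (lv D 6 lev) k (mt (ng hD F 3 * g * ng hD F 3) - 1)) :
    Raises (lv D 6 (row 0)) k (mt g - 1) := by
  have h1 : Raises (lv D 6 lev) k (mt (ng hD F 3 * g * (ng hD F 3)⁻¹) - 1) := by
    rw [ng_inv hD hF]; exact h
  have h2 := raises_conj_ng hD hF hT (by norm_num) h1
  have h3 : lv D 6 (row 0) = lv D 6 (fun s => lev (refl 3 s)) := by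
    refine lv_congr fun s hs => ?_
    rw [hT.nroots] at hs
    exact row_zero hs
  rw [h3]
  exact h2

theorem entry_sub_one (M : Matrix D.Idx D.Idx F) (β : Fin D.nroots) (i : Fin D.rank) :
    (M - 1) (Sum.inr β) (Sum.inl i) = M (Sum.inr β) (Sum.inl i) := by
  rw [Matrix.sub_apply, Matrix.one_apply_ne (by simp), sub_zero]

include hF hPB hPS in
theorem upper_one (hT : Tab D) {K : Subgroup ↥(D.group F)} (hKM : K ≤ P.parabolic (JS D F))
    (hK : ∀ m ∈ P.parabolic (JS D F), ∀ a ∈ K, m * a * m⁻¹ ∈ K)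
    (hKn : ∀ a ∈ K, ng hD F 3 * a * ng hD F 3 ∈ P.parabolic (JS D F)) : K ≤ Nk hD F 2 := by
  have hrow : ∀ t < 30, ∀ g ∈ K, Raises (lv D 6 (row t)) 0 (mt g - 1) := by
    refine raises_rows hD hF hT (fun j hj hj3 a ha => hK _ (ng_mem_parabolic hD hT hj hj3) a ha) ?_
    intro g hg
    refine raises_row_zero hD hF hT (raises_sub_one_zero ?_)
    exact (parabolic_le_Fil hD hF hPB hT (hKn g hg)).1
  have hlev : ∀ g ∈ K, Raises (lv D 6 lev) 0 (mt g) := fun g hg =>
    (parabolic_le_Fil hD hF hPB hT (hKM hg)).1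
  have hrow' : ∀ t < 30, ∀ g ∈ K, Raises (lv D 6 (row t)) 0 (mt g) := by
    intro t ht g hg
    have h2 := (hrow t ht g hg).add raises_one
    rwa [sub_add_cancel] at h2
  -- `K` preserves the `lam` filtration
  have hlam : ∀ g ∈ K, Raises (lv D 4000 lam) 0 (mt g) := by
    intro g hg a b h
    have h1 := hlev g hg a b h
    have h2 : ∀ t < 30, lv D 6 (row t) b + 0 ≤ lv D 6 (row t) a := fun t ht => hrow' t ht g hg a b h
    rcases a with i | s <;> rcases b with j | s'
    · exact le_rfl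
    · have hs : s'.val < 240 := lt_of_lt_of_eq s'.2 hT.nroots
      have h3 : lev s' + 0 ≤ 6 := h1
      show lam s' + 0 ≤ 4000
      have h4 := lam_ref_spec hs
      by_cases h5 : lev s' < 6
      · have := h4.1 h5
        omega
      · exfalso
        obtain ⟨-, t, ht, h6⟩ := ex_zero_spec hs (by omega)
        have h7 : row t s' + 0 ≤ 6 := h2 t ht
        omega
    · have hs : s.val < 240 := lt_of_lt_of_eq s.2 hT.nroots
      have h3 : 6 + 0 ≤ lev s := h1
      show 4000 + 0 ≤ lam s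
      have h4 := lam_ref_spec hs
      by_cases h5 : 6 < lev s
      · have := h4.2.1 h5
        omega
      · exfalso
        obtain ⟨⟨t, ht, h6⟩, -⟩ := ex_zero_spec hs (by omega)
        have h7 : 6 + 0 ≤ row t s := h2 t ht
        omega
    · have hs : s.val < 240 := lt_of_lt_of_eq s.2 hT.nroots
      have hs' : s'.val < 240 := lt_of_lt_of_eq s'.2 hT.nroots
      have h3 : lev s' + 0 ≤ lev s := h1
      show lam s' + 0 ≤ lam s
      by_cases h5 : lev s' < lev s
      · have := (lam_ref_spec hs').2.2.2 s hs h5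
        omega
      · by_cases h6 : s.val = s'.val
        · rw [h6]; omega
        · exfalso
          obtain ⟨t, ht, h7⟩ := ex_sep_spec hs hs' (by omega) h6
          have h8 : row t s' + 0 ≤ row t s := h2 t ht
          omega
  have hKQ : K ≤ Fil D F (lv D 4000 lam) := fun g hg => ⟨hlam g hg, hlam g⁻¹ (inv_mem hg)⟩
  have hBQ : P.B ≤ Fil D F (lv D 4000 lam) :=
    B_le_of hD hF hPB _ hT fun _ hr hr' => xg_mem_Fil hD hF hT (good_lam hT) hr hr'
  have hSQ : P.S ∩ (Fil D F (lv D 4000 lam) : Set ↥(D.group F)) = ∅ := by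
    rw [Set.eq_empty_iff_forall_notMem]
    rintro n ⟨hnS, hnQ⟩
    rw [hPS] at hnS
    obtain ⟨i, hi, hn⟩ := hnS
    rw [hT.rank] at hi
    rw [eq_ng hD hn] at hnQ
    exact ng_not_mem_Fil hD hT hT.lam_add hi
      (lam_pos_spec (hT.simple i hi).1 (hT.simple i hi).2) hnQ
  have hQB : Fil D F (lv D 4000 lam) = P.B := by
    rw [eq_parabolic hBQ, hSQ]
    show P.B ⊔ Subgroup.closure ∅ = P.B
    rw [Subgroup.closure_empty, sup_bot_eq]
  intro g hg
  have hgB : g ∈ P.B := by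
    rw [← hQB]
    exact hKQ hg
  rw [mem_Nk]
  refine elim hD hF hT (posUnipotent_of_mem_B hD hF hPB hgB) ?_
  intro β hβ hlt i
  by_contra hne
  have hs : β.val < 240 := lt_of_lt_of_eq β.2 hT.nroots
  have h1 : 6 + 0 ≤ lev β := hlev g hg _ _ hne
  have h2 : ∀ t < 30, 6 + 0 ≤ row t β := fun t ht => hrow' t ht g hg _ _ hne
  by_cases h6 : lev β = 6
  · obtain ⟨⟨t, ht, h7⟩, -⟩ := ex_zero_spec hs h6
    have := h2 t ht
    omega
  · obtain ⟨t, ht, h7⟩ := ex_one_spec hs (by omega)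
    have := h2 t ht
    omega

include hF in
theorem upper_step (hT : Tab D) {k : ℕ} (hk : 2 ≤ k) {K : Subgroup ↥(D.group F)}
    (hKN : K ≤ Nk hD F k)
    (hK : ∀ m ∈ P.parabolic (JS D F), ∀ a ∈ K, m * a * m⁻¹ ∈ K)
    (hKn : ∀ a ∈ K, ng hD F 3 * a * ng hD F 3 ∈ Nk hD F k) : K ≤ Nk hD F (k + 1) := by
  obtain ⟨k', rfl⟩ : ∃ k', k = k' + 1 := ⟨k - 1, by omega⟩
  have hraise : ∀ g ∈ Nk hD F (k' + 1), Raises (lv D 6 lev) (k' + 1) (mt g - 1) := by
    intro g hg
    exact NS_raises hD hT (good_lev hT) ((mem_Nk hD).1 hg)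
  have hrow : ∀ t < 30, ∀ g ∈ K, Raises (lv D 6 (row t)) (k' + 1) (mt g - 1) := by
    refine raises_rows hD hF hT (fun j hj hj3 a ha => hK _ (ng_mem_parabolic hD hT hj hj3) a ha) ?_
    intro g hg
    exact raises_row_zero hD hF hT (hraise _ (hKn g hg))
  intro g hg
  rw [mem_Nk]
  refine elim hD hF hT (NS_le_posUnipotent hD hT ((mem_Nk hD).1 (hKN hg))) ?_
  intro β hβ hlt i
  by_contra hne
  have hs : β.val < 240 := lt_of_lt_of_eq β.2 hT.nroots
  have hne' : (mt g - 1) (Sum.inr β) (Sum.inl i) ≠ 0 := by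
    rw [entry_sub_one]
    exact hne
  have h1 : 6 + (k' + 1) ≤ lev β := hraise g (hKN hg) _ _ hne'
  obtain ⟨t, ht, h2⟩ := ex_pos_spec hs (by omega)
  have h3 : 6 + (k' + 1) ≤ row t β := hrow t ht g hg _ _ hne'
  omega

end BN

include hD hF in
theorem main (hT : Tab D) (h3 : 6 < lev (D.simple 3)) (h239 : lev 239 = 12)
    (hsimple : IsSimpleGroup ↥(D.group F)) :
    ∃ (M₁ M₂ : Subgroup ↥(D.group F)) (g : ↥(D.group F)) (A B : ℕ → Subgroup ↥(D.group F)),
      IsCoatom M₁ ∧ M₂ = M₁.map (MulAut.conj g).toMonoidHom ∧ M₁ ≠ M₂ ∧ M₁.normalCore = ⊥ ∧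
      A 0 = M₁ ∧ B 0 = M₂ ∧
      (∀ i, A (i + 1) = ((A i ⊓ B i).subgroupOf M₁).normalCore.map M₁.subtype) ∧
      (∀ i, B (i + 1) = ((A i ⊓ B i).subgroupOf M₂).normalCore.map M₂.subtype) ∧
      A 6 = ⊥ ∧ A 5 ≠ ⊥ := by
  obtain ⟨P, hPB, -, hPS⟩ := Cfsg.Agent.S1042.result (F := F) D hD
  have hco := isCoatom hD hF hPB hPS hT h3
  have hmain := Cfsg.Agent.H899.IterCore.main (P.parabolic (JS D F)) (ng hD F 3) (ng_sq hD hF 3)
    (Nk hD F) ?_ (fun k hk m hm a ha => conj_Nk hD hF hPB hT hk hm ha) ?_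
    (fun k hk a ha => conj_Nk_n3 hD hF hT hk ha) ?_ ?_
    (fun K h1 h2 h3 => upper_one hD hF hPB hPS hT h1 h2 h3)
    (fun k hk K _ h2 h3 h4 => upper_step hD hF hT hk h2 h3 h4)
  · obtain ⟨M₂, g, A, B, e1, e2, e3, e4, e5, e6, e7, e8⟩ := hmain
    refine ⟨P.parabolic (JS D F), M₂, g, A, B, hco, e1, e2, ?_, e3, e4, e5, e6, e7, e8⟩
    rcases hsimple.eq_bot_or_eq_top_of_normal _ (Subgroup.normalCore_normal (P.parabolic (JS D F)))
      with h | h
    · exact h
    · exfalso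
      apply hco.1
      rw [eq_top_iff, ← h]
      exact Subgroup.normalCore_le _
  · intro g hg
    refine (le_sup_left : P.B ≤ _) (mem_B_of_posUnipotent hPB ?_)
    exact NS_le_posUnipotent hD hT ((mem_Nk hD).1 hg)
  · intro k _ g hg
    rw [mem_Nk] at hg ⊢
    refine NS_mono hD ?_ hg
    rintro r ⟨hr, hr', hrk⟩
    exact ⟨hr, hr', by omega⟩
  · intro h
    have h1 : xg hD F 239 ∈ Nk hD F 6 := by
      rw [mem_Nk]
      exact one_mem_NS hD ⟨by norm_num, by norm_num, by rw [h239]⟩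
    rw [h, Subgroup.mem_bot] at h1
    have h2 : xG hD 239 (1 : F) = 1 := congrArg Subtype.val h1
    rw [xG_eq_one_iff hD (by rw [hT.nroots]; norm_num)] at h2
    exact one_ne_zero h2
  · rw [eq_bot_iff]
    intro g hg
    rw [mem_Nk] at hg
    have h1 : Rf lev (6 + 7) = ∅ := by
      rw [Set.eq_empty_iff_forall_notMem]
      rintro r ⟨hr, -, hrk⟩
      have := (refl3_spec hr).2.2
      omega
    rw [h1] at hg
    have h2 : NS hD F (∅ : Set ℕ) = ⊥ := by
      rw [eq_bot_iff]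
      refine (Subgroup.closure_le _).2 ?_
      rintro x ⟨r, hr, -⟩
      exact absurd hr (Set.notMem_empty r)
    rw [h2, Subgroup.mem_bot] at hg
    rw [Subgroup.mem_bot]
    exact Subtype.ext hg

end Cfsg.Agent.H899.ChevPar
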